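import Cfsg.Agent.H286.Row
import Cfsg.Agent.H500.OddD8
import Cfsg.Agent.H51.OddSeven
import Cfsg.Agent.H300.SporBase
import Cfsg.Agent.SectRankFour.OutAb

/-!
# Killing a component with dihedral Sylow 2-subgroups by the row lemma

`C = C_K(x)`, `A ⊴ C` quasisimple, `|Z(A)|` odd, `A / Z(A) ≃ L`, `Out L` abelian, the 2-subgroups of `L` are dihedral or
cyclic, the Sylow 2-subgroups of `C_C(A)` are cyclic:

* `not_obs` : `Obs p x` fails;
* `false_of_pcase` : `PCase p x` leads to an elementary abelian Sylow `p`-subgroup of `C / O(C_C(A)) ≤ Aut L`.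
-/

set_option autoImplicit false
set_option linter.unusedSectionVars false

namespace Cfsg.Agent.H286.Kill

open Subgroup Cfsg Cfsg.Agent.H286.Obs Cfsg.Agent.H286.Row Cfsg.Agent.SectRankFour.OutAb
open scoped commutatorElement

universe u v

/-- `p`-elements centralise the normal cyclic 2-subgroups -/
theorem comm_of_cyclic {C : Type*} [Group C] [Finite C] {p : ℕ} (hp : Odd p) {D : Subgroup C} (hn : D.Normal)
    (hD : IsCyclic ↥D) (h2 : IsPGroup 2 ↥D) {g : C} (hg : PE p g) : ∀ d ∈ D, g * d = d * g := by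
  have : Fact (Nat.Prime 2) := ⟨Nat.prime_two⟩
  obtain ⟨m, hm⟩ := hg
  obtain ⟨k, hk⟩ := IsPGroup.iff_card.1 h2
  have h1 : (MulAut.conjNormal g : MulAut ↥D) ^ p ^ m = 1 := by rw [← map_pow, hm, map_one]
  have h3 : orderOf (MulAut.conjNormal g : MulAut ↥D) ∣ p ^ m := orderOf_dvd_of_pow_eq_one h1
  have h4 : orderOf (MulAut.conjNormal g : MulAut ↥D) ∣ 2 ^ k := by
    refine (_root_.orderOf_dvd_natCard (MulAut.conjNormal g : MulAut ↥D)).trans ?_
    rw [hD.card_mulAut, hk]
    rcases Nat.eq_zero_or_pos k with rfl | h0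
    · simp
    · rw [Nat.totient_prime_pow Nat.prime_two h0]
      simp only [Nat.add_one_sub_one, mul_one]
      exact pow_dvd_pow 2 (Nat.sub_le k 1)
  have h5 : orderOf (MulAut.conjNormal g : MulAut ↥D) = 1 :=
    Nat.eq_one_of_dvd_coprimes (Nat.Coprime.pow m k (Nat.coprime_two_right.2 hp)) h3 h4
  rw [orderOf_eq_one_iff] at h5
  intro d hd
  have h6 := congrArg (fun t : MulAut ↥D => ((t ⟨d, hd⟩ : ↥D) : C)) h5
  simp only [MulAut.conjNormal_apply, MulAut.one_apply] at h6
  exact mul_inv_eq_iff_eq_mul.1 h6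

theorem nil_of_comm {Q : Type*} [Group Q] (h : ∀ a b : Q, ⁅a, b⁆ ∈ center Q) : Group.IsNilpotent Q := by
  refine Group.of_quotient_center_nilpotent ?_
  have h4 : ∀ a b : Q ⧸ center Q, a * b = b * a := by
    intro a b
    obtain ⟨a, rfl⟩ := QuotientGroup.mk_surjective a
    obtain ⟨b, rfl⟩ := QuotientGroup.mk_surjective b
    rw [← QuotientGroup.mk_mul, ← QuotientGroup.mk_mul, QuotientGroup.eq]
    have h5 : (a * b)⁻¹ * (b * a) = ⁅b⁻¹, a⁻¹⁆ := by rw [commutatorElement_def]; group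
    rw [h5]
    exact h _ _
  let _ : CommGroup (Q ⧸ center Q) := { (inferInstance : Group (Q ⧸ center Q)) with mul_comm := h4 }
  infer_instance

/-- the `p`-elements generate a `p`-group if the commutators lie in `J`, and `⁅E, J⁆` in a normal cyclic 2-subgroup -/
theorem gen_pgroup {E : Type*} [Group E] [Finite E] {p : ℕ} [Fact p.Prime] (hp : Odd p) {D J : Subgroup E}
    (hn : D.Normal) (hD : IsCyclic ↥D) (h2 : IsPGroup 2 ↥D) (hab : ∀ a b : E, ⁅a, b⁆ ∈ J)
    (hJ : ∀ a : E, ∀ j ∈ J, ⁅a, j⁆ ∈ D) : IsPGroup p ↥(closure {g : E | PE p g}) := by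
  obtain ⟨N, hN⟩ : ∃ N, N = closure {g : E | PE p g} := ⟨_, rfl⟩
  rw [← hN]
  have hc : ∀ g ∈ N, ∀ d ∈ D, g * d = d * g := by
    intro g hg d hd
    rw [hN] at hg
    have h1 := commute_closure (S := {g : E | PE p g}) (T := {d}) (fun s hs t ht => by
      rw [Set.mem_singleton_iff.1 ht]
      exact comm_of_cyclic hp hn hD h2 hs d hd) hg (Subgroup.subset_closure rfl : d ∈ closure {d})
    exact h1
  have hnil : Group.IsNilpotent ↥N := by
    -- the elements of `J` are central modulo the center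
    have hcen : ∀ j : ↥N, (j : E) ∈ J → (QuotientGroup.mk j : ↥N ⧸ center ↥N) ∈ center (↥N ⧸ center ↥N) := by
      intro j hj
      rw [mem_center_iff]
      intro a
      obtain ⟨a, rfl⟩ := QuotientGroup.mk_surjective a
      rw [← QuotientGroup.mk_mul, ← QuotientGroup.mk_mul, QuotientGroup.eq, mem_center_iff]
      intro g
      have h5 : ((a * j)⁻¹ * (j * a) : ↥N) = ⁅j⁻¹, a⁻¹⁆ := by rw [commutatorElement_def]; group
      rw [h5]
      apply Subtype.ext
      refine hc g g.2 _ ?_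
      have h6 := hJ ((a⁻¹ : ↥N) : E) ((j⁻¹ : ↥N) : E) (by rw [coe_inv]; exact inv_mem hj)
      have h7 : ((⁅j⁻¹, a⁻¹⁆ : ↥N) : E) = ⁅((a⁻¹ : ↥N) : E), ((j⁻¹ : ↥N) : E)⁆⁻¹ := by
        rw [commutatorElement_inv]
        rfl
      rw [h7]
      exact inv_mem h6
    have h3 : Group.IsNilpotent (↥N ⧸ center ↥N) := by
      refine nil_of_comm fun a b => ?_
      obtain ⟨a, rfl⟩ := QuotientGroup.mk_surjective a
      obtain ⟨b, rfl⟩ := QuotientGroup.mk_surjective b
      exact hcen ⁅a, b⁆ (hab (a : E) (b : E))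
    exact Group.of_quotient_center_nilpotent h3
  have P : Sylow p ↥N := default
  have hP : (P : Subgroup ↥N).Normal := (Group.isNilpotent_of_finite_tfae.out 0 3 rfl rfl).mp hnil p inferInstance P
  have hall : ∀ g : ↥N, PE p (g : E) → g ∈ (P : Subgroup ↥N) := by
    rintro g ⟨m, hm⟩
    have h3 : g ^ p ^ m = 1 := Subtype.ext (by rw [coe_pow, hm, coe_one])
    have h4 : IsPGroup p ↥(zpowers g) := by
      obtain ⟨j, -, hj⟩ := (Nat.dvd_prime_pow Fact.out).1 (orderOf_dvd_of_pow_eq_one h3)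
      exact IsPGroup.of_card (n := j) (by rw [Nat.card_zpowers, hj])
    obtain ⟨Q, hQ⟩ := h4.exists_le_sylow
    have := Sylow.unique_of_normal P hP
    rw [Subsingleton.elim Q P] at hQ
    exact hQ (mem_zpowers g)
  have h3 : N ≤ (P : Subgroup ↥N).map N.subtype := by
    conv_lhs => rw [hN]
    rw [closure_le]
    intro g hg
    have hgN : g ∈ N := by rw [hN]; exact subset_closure hg
    exact ⟨⟨g, hgN⟩, hall _ hg, rfl⟩
  exact (P.isPGroup'.map N.subtype).to_le h3

/-- the 2-subgroups of the group generated by the `p`-elements -/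
theorem two_le {C : Type*} [Group C] [Finite C] {p : ℕ} [Fact p.Prime] (hp : Odd p) {B S J : Subgroup C}
    (hB : B.Normal) (hS : IsCyclic ↥S) (h2 : IsPGroup 2 ↥S) (hBS : (B ⊔ S).Normal) (hab : ∀ a b : C, ⁅a, b⁆ ∈ J)
    (hJ : ∀ a : C, ∀ j ∈ J, ⁅a, j⁆ ∈ B ⊔ S) {T : Subgroup C} (hT : IsPGroup 2 ↥T) (hTN : T ≤ closure {g : C | PE p g}) : T ≤ B := by
  have : Fact (Nat.Prime 2) := ⟨Nat.prime_two⟩
  obtain ⟨π, hπ⟩ : ∃ π, π = QuotientGroup.mk' B := ⟨_, rfl⟩
  have hsur : Function.Surjective π := by rw [hπ]; exact QuotientGroup.mk'_surjective B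
  have hker : ∀ g, π g = 1 ↔ g ∈ B := by
    intro g
    rw [hπ]
    exact QuotientGroup.eq_one_iff g
  have hD : (S.map π) = (B ⊔ S).map π := by
    rw [Subgroup.map_sup]
    have h1 : B.map π = ⊥ := by
      rw [eq_bot_iff]
      rintro _ ⟨b, hb, rfl⟩
      exact (hker b).2 hb
    rw [h1, bot_sup_eq]
  have hDn : (S.map π).Normal := by
    rw [hD]
    exact hBS.map π hsur
  have hDc : IsCyclic ↥(S.map π) := by
    refine isCyclic_of_surjective (π.subgroupMap S) ?_
    exact π.subgroupMap_surjective S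
  have h3 := gen_pgroup hp (J := J.map π) hDn hDc (h2.map π) (fun a b => by
    obtain ⟨a, rfl⟩ := hsur a
    obtain ⟨b, rfl⟩ := hsur b
    rw [← map_commutatorElement]
    exact Subgroup.mem_map_of_mem π (hab a b)) (fun a j hj => by
    obtain ⟨a, rfl⟩ := hsur a
    obtain ⟨j, hj, rfl⟩ := hj
    rw [← map_commutatorElement, hD]
    exact Subgroup.mem_map_of_mem π (hJ a j hj))
  have h4 : (closure {g : C | PE p g}).map π ≤ closure {g : C ⧸ B | PE p g} := by
    rw [MonoidHom.map_closure, closure_le]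
    rintro _ ⟨g, hg, rfl⟩
    exact subset_closure (hg.map π)
  intro t ht
  rw [← hker]
  obtain ⟨m, hm⟩ := h3 ⟨π t, h4 (Subgroup.mem_map_of_mem π (hTN ht))⟩
  obtain ⟨k, hk⟩ := hT ⟨t, ht⟩
  have e1 : (π t) ^ p ^ m = 1 := congrArg Subtype.val hm
  have e2 : (π t) ^ 2 ^ k = 1 := by
    rw [← map_pow]
    have : t ^ 2 ^ k = 1 := congrArg Subtype.val hk
    rw [this, map_one]
  have h5 : orderOf (π t) = 1 :=
    Nat.eq_one_of_dvd_coprimes (Nat.Coprime.pow m k (Nat.coprime_two_right.2 hp)) (orderOf_dvd_of_pow_eq_one e1)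
      (orderOf_dvd_of_pow_eq_one e2)
  exact orderOf_eq_one_iff.1 h5

open Cfsg.Agent.H300.SporBase (barHom barHom_apply eq_one_of_bar)
open Cfsg.Agent.Classification.DihedralCentral

/-- a normal subgroup with cyclic Sylow 2-subgroups -/
theorem exists_OS {C : Type*} [Group C] [Finite C] {D : Subgroup C} (hD : D.Normal)
    (hcyc : ∀ R : Sylow 2 ↥D, IsCyclic ↥(R : Subgroup ↥D)) :
    ∃ O S : Subgroup C, O.Normal ∧ Odd (Nat.card ↥O) ∧ IsCyclic ↥S ∧ IsPGroup 2 ↥S ∧ O ⊔ S = D := by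
  have : Fact (Nat.Prime 2) := ⟨Nat.prime_two⟩
  have R : Sylow 2 ↥D := default
  have hR := hcyc R
  have hch : (oddCore ↥D).Characteristic := Cfsg.Agent.Lib.Cores.pPrimeCore_characteristic 2
  have hodd : Odd (Nat.card ↥(oddCore ↥D)) := Nat.coprime_two_right.1 (Cfsg.Agent.Lib.Cores.pPrimeCore_coprime 2)
  have htop : oddCore ↥D ⊔ (R : Subgroup ↥D) = ⊤ := by
    by_cases hev : 2 ∣ Nat.card ↥D
    · have hmf : (Nat.card ↥D).minFac = 2 := (Nat.minFac_eq_two_iff _).2 hev
      have h1 := IsCyclic.isComplement' (P := R) hmf hR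
      have h2 := h1.sup_eq_top
      rw [eq_top_iff, ← h2]
      refine sup_le_sup_right ?_ _
      refine Cfsg.Agent.Lib.Cores.le_pPrimeCore inferInstance ?_
      have h3 := h1.card_mul
      have h4 := R.not_dvd_index
      have h5 : (R : Subgroup ↥D).index = Nat.card ↥(MonoidHom.transferSylow R (hR.normalizer_le_centralizer hmf)).ker :=
        h1.index_eq_card
      rw [h5] at h4
      exact ((Nat.Prime.coprime_iff_not_dvd Nat.prime_two).2 h4).symm
    · rw [eq_top_iff]
      refine le_trans ?_ le_sup_left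
      refine Cfsg.Agent.Lib.Cores.le_pPrimeCore inferInstance ?_
      rw [Nat.card_congr (Subgroup.topEquiv (G := ↥D)).toEquiv]
      exact ((Nat.Prime.coprime_iff_not_dvd Nat.prime_two).2 hev).symm
  refine ⟨(oddCore ↥D).map D.subtype, (R : Subgroup ↥D).map D.subtype, ConjAct.normal_of_characteristic_of_normal,
    ?_, ?_, R.isPGroup'.map _, ?_⟩
  · rwa [Nat.card_congr ((oddCore ↥D).equivMapOfInjective D.subtype (Subgroup.subtype_injective D)).toEquiv.symm]
  · exact isCyclic_of_surjective _ (((R : Subgroup ↥D).equivMapOfInjective D.subtype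
      (Subgroup.subtype_injective D)).surjective)
  · rw [← Subgroup.map_sup, htop, ← MonoidHom.range_eq_map, Subgroup.range_subtype]

theorem subDihedral_of {N L : Type*} [Group N] [Group L] (hL : SubDihedral L)
    (h : ∀ T : Subgroup N, IsPGroup 2 ↥T → ∃ g : ↥T →* L, Function.Injective g) : SubDihedral N := by
  intro T hT
  obtain ⟨g, hg⟩ := h T hT
  obtain ⟨R, hR, hRT⟩ := subDihedral_of_injective g hg hL ⊤
    (hT.of_injective (Subgroup.topEquiv (G := ↥T)).toMonoidHom (Subgroup.topEquiv (G := ↥T)).injective)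
  refine ⟨R.map T.subtype, isCyclic_of_surjective _ ((R.equivMapOfInjective T.subtype
    (Subgroup.subtype_injective T)).surjective), ?_⟩
  intro x hx hxR
  have h1 : (⟨x, hx⟩ : ↥T) ∉ R := fun h0 => hxR ⟨_, h0, rfl⟩
  obtain ⟨h2, h3⟩ := hRT ⟨x, hx⟩ (mem_top _) h1
  refine ⟨congrArg Subtype.val h2, fun y hy hyR => ?_⟩
  have h4 : (⟨y, hy⟩ : ↥T) ∉ R := fun h0 => hyR ⟨_, h0, rfl⟩
  exact ⟨_, h3 ⟨y, hy⟩ (mem_top _) h4, rfl⟩

section Main

variable {C : Type u} [Group C] [Finite C] {A : Subgroup C} (hn : A.Normal) (hA : IsQuasisimple ↥A) {L : Type v}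
  [Group L] (e : ↥A ⧸ center ↥A ≃* L)

include hA in
theorem mem_ker_bar {g : C} : barHom hn e g = 1 ↔ g ∈ centralizer (A : Set C) := by
  constructor
  · intro h
    have h1 : (MulAut.conjNormal g : MulAut ↥A) = 1 := by
      refine eq_one_of_bar hA.1.commutator_eq_top _ ?_
      intro a
      have h2 : barHom hn e g (e (QuotientGroup.mk a)) = e (QuotientGroup.mk a) := by
        rw [h, MulAut.one_apply]
      rw [barHom_apply] at h2
      exact QuotientGroup.eq.1 (e.injective h2).symm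
    rw [mem_centralizer_iff]
    intro a ha
    have h2 := congrArg (fun t : MulAut ↥A => ((t ⟨a, ha⟩ : ↥A) : C)) h1
    simp only [MulAut.conjNormal_apply, MulAut.one_apply] at h2
    exact (mul_inv_eq_iff_eq_mul.1 h2).symm
  · intro h
    ext l
    obtain ⟨q, rfl⟩ := e.surjective l
    obtain ⟨a, rfl⟩ := QuotientGroup.mk_surjective q
    rw [barHom_apply, MulAut.one_apply]
    congr 2
    apply Subtype.ext
    rw [MulAut.conjNormal_apply, ← mem_centralizer_iff.1 h (a : C) a.2, mul_inv_cancel_right]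

theorem bar_coe (a : ↥A) : barHom hn e (a : C) = MulAut.conj (e (QuotientGroup.mk a)) := by
  ext l
  obtain ⟨q, rfl⟩ := e.surjective l
  obtain ⟨b, rfl⟩ := QuotientGroup.mk_surjective q
  rw [barHom_apply, MulAut.conj_apply, ← map_inv, ← map_mul, ← map_mul]
  congr 1

theorem conj_mem_range (l : L) : MulAut.conj l ∈ (barHom hn e).range := by
  obtain ⟨q, rfl⟩ := e.surjective l
  obtain ⟨a, rfl⟩ := QuotientGroup.mk_surjective q
  exact ⟨(a : C), bar_coe hn e a⟩

include hn hA e in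
theorem comm_mem (hOut : OutComm L) (a b : C) : ⁅a, b⁆ ∈ A ⊔ centralizer (A : Set C) := by
  obtain ⟨k, hk⟩ := hOut (barHom hn e a) (barHom hn e b)
  obtain ⟨q, rfl⟩ := e.surjective k
  obtain ⟨a0, rfl⟩ := QuotientGroup.mk_surjective q
  have h1 : barHom hn e ⁅a, b⁆ = MulAut.conj (e (QuotientGroup.mk a0)) := by
    rw [map_commutatorElement]
    ext l
    rw [commutatorElement_def, hk, MulAut.conj_apply]
  have h2 : barHom hn e ((a0 : C)⁻¹ * ⁅a, b⁆) = 1 := by
    rw [map_mul, map_inv, bar_coe, h1, inv_mul_cancel]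
  rw [mem_ker_bar hn hA] at h2
  have h3 : ⁅a, b⁆ = (a0 : C) * ((a0 : C)⁻¹ * ⁅a, b⁆) := by group
  rw [h3]
  exact mul_mem (le_sup_left (b := centralizer (A : Set C)) a0.2) (le_sup_right (a := A) h2)

variable {B : Subgroup C} (hB : B.Normal) (hBA : B ≤ centralizer (A : Set C))
  (hBc : ∀ c : C, ∀ j ∈ centralizer (A : Set C), ⁅c, j⁆ ∈ B) (hBs : ∀ S : Sylow 2 ↥B, IsCyclic ↥(S : Subgroup ↥B))
  (hZ : Odd (Nat.card ↥(center ↥A))) (hcL : center L = ⊥) (hOut : OutComm L) (hL : SubDihedral L)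

include hn hA e hB hBA hBc hBs hZ hcL hOut hL

/-- The group generated by the `p`-elements has dihedral 2-subgroups. -/
theorem subDihedral_gen {p : ℕ} [Fact p.Prime] (hp : Odd p) : SubDihedral ↥(closure {g : C | PE p g}) := by
  have : Fact (Nat.Prime 2) := ⟨Nat.prime_two⟩
  obtain ⟨O, S, hO, hOodd, hS, hS2, hOS⟩ := exists_OS hB hBs
  have hBn : (A ⊔ O).Normal := Subgroup.sup_normal A O
  have hBS : A ⊔ O ⊔ S = A ⊔ B := by rw [sup_assoc, hOS]
  have hconj : Function.Injective (MulAut.conj : L →* MulAut L) := by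
    rw [injective_iff_map_eq_one]
    intro l hl
    have h1 : l ∈ center L := by
      rw [mem_center_iff]
      intro g
      have h2 := congrArg (fun t : MulAut L => t g) hl
      simp only [MulAut.conj_apply, MulAut.one_apply] at h2
      exact (mul_inv_eq_iff_eq_mul.1 h2).symm
    rw [hcL, mem_bot] at h1
    exact h1
  refine subDihedral_of hL fun T hT => ?_
  -- `T ≤ A O`
  have hT2 : IsPGroup 2 ↥(T.map (closure {g : C | PE p g}).subtype) := hT.map _
  have hTB : T.map (closure {g : C | PE p g}).subtype ≤ A ⊔ O := by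
    refine two_le (J := A ⊔ centralizer (A : Set C)) hp hBn hS hS2 ?_ (comm_mem hn hA e hOut) ?_ hT2 ?_
    · rw [hBS]; exact Subgroup.sup_normal A _
    · intro c j hj
      rw [hBS]
      have hA' : A ≤ A ⊔ B := le_sup_left
      have hABn : (A ⊔ B).Normal := Subgroup.sup_normal A B
      obtain ⟨a, ha, j', hj', rfl⟩ := Subgroup.mem_sup_of_normal_left.1 hj
      have h1 : ⁅c, a * j'⁆ = ⁅c, a⁆ * (a * ⁅c, j'⁆ * a⁻¹) := by
        rw [commutatorElement_def, commutatorElement_def, commutatorElement_def]; group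
      rw [h1]
      refine mul_mem (hA' ?_) (hABn.conj_mem _ (le_sup_right (a := A) (hBc c j' hj')) a)
      rw [commutatorElement_def]
      exact mul_mem (hn.conj_mem a ha c) (inv_mem ha)
    · rintro _ ⟨t, -, rfl⟩
      exact t.2
  obtain ⟨f, hf⟩ : ∃ f : ↥T →* MulAut L, ∀ t : ↥T, f t = barHom hn e ((t : ↥(closure {g : C | PE p g})) : C) :=
    ⟨((barHom hn e).comp (closure {g : C | PE p g}).subtype).comp T.subtype, fun _ => rfl⟩
  have hmem : ∀ t : ↥T, ∃ a ∈ A, ∃ o ∈ O, ((t : ↥(closure {g : C | PE p g})) : C) = a * o := by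
    intro t
    have h1 : ((t : ↥(closure {g : C | PE p g})) : C) ∈ A ⊔ O := hTB ⟨_, t.2, rfl⟩
    obtain ⟨a, ha, o, ho, h2⟩ := Subgroup.mem_sup_of_normal_right.1 h1
    exact ⟨a, ha, o, ho, h2.symm⟩
  have hOA : ∀ o ∈ O, o ∈ centralizer (A : Set C) := fun o ho => hBA (by
    rw [← hOS]; exact le_sup_left (b := S) ho)
  have hO1 : ∀ o ∈ O, barHom hn e o = 1 := fun o ho => (mem_ker_bar hn hA e).2 (hOA o ho)
  have hrange : ∀ t : ↥T, f t ∈ (MulAut.conj : L →* MulAut L).range := by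
    intro t
    obtain ⟨a, ha, o, ho, h2⟩ := hmem t
    rw [hf, h2, map_mul, hO1 o ho, mul_one]
    exact ⟨_, (bar_coe hn e ⟨a, ha⟩).symm⟩
  have hfi : Function.Injective f := by
    rw [injective_iff_map_eq_one]
    intro t ht
    rw [hf, mem_ker_bar hn hA] at ht
    obtain ⟨a, ha, o, ho, h2⟩ := hmem t
    have hoD : o ∈ centralizer (A : Set C) := hOA o ho
    have haD : a ∈ centralizer (A : Set C) := by
      have h3 : a = ((t : ↥(closure {g : C | PE p g})) : C) * o⁻¹ := by rw [h2]; group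
      rw [h3]
      exact mul_mem ht (inv_mem hoD)
    have haZ : a ∈ (center ↥A).map A.subtype := by
      refine ⟨⟨a, ha⟩, ?_, rfl⟩
      rw [SetLike.mem_coe, mem_center_iff]
      intro g
      exact Subtype.ext (mem_centralizer_iff.1 haD g g.2)
    have hZn : ((center ↥A).map A.subtype).Normal := by
      have := hn
      exact ConjAct.normal_of_characteristic_of_normal
    have h4 : Odd (Nat.card ↥((center ↥A).map A.subtype ⊔ O)) := by
      refine Odd.of_dvd_nat ?_ (Cfsg.Agent.Lib.Cores.card_sup_dvd _ _ hZn)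
      refine Odd.mul ?_ hOodd
      rwa [Nat.card_congr ((center ↥A).equivMapOfInjective A.subtype (Subgroup.subtype_injective A)).toEquiv.symm]
    have h5 : ((t : ↥(closure {g : C | PE p g})) : C) ∈ (center ↥A).map A.subtype ⊔ O := by
      rw [h2]
      exact mul_mem (le_sup_left (b := O) haZ) (le_sup_right (a := (center ↥A).map A.subtype) ho)
    have h6 : orderOf ((t : ↥(closure {g : C | PE p g})) : C) ∣ Nat.card ↥((center ↥A).map A.subtype ⊔ O) :=
      Subgroup.orderOf_dvd_natCard _ h5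
    obtain ⟨k, hk⟩ := hT t
    have h7 : orderOf ((t : ↥(closure {g : C | PE p g})) : C) ∣ 2 ^ k := orderOf_dvd_of_pow_eq_one (by
      have := congrArg (fun s : ↥T => ((s : ↥(closure {g : C | PE p g})) : C)) hk
      exact this)
    have h8 : orderOf ((t : ↥(closure {g : C | PE p g})) : C) = 1 :=
      Nat.eq_one_of_dvd_coprimes ((Nat.coprime_two_right.2 h4).pow_right k) h6 h7
    rw [orderOf_eq_one_iff] at h8
    exact Subtype.ext (Subtype.ext h8)
  refine ⟨(MonoidHom.ofInjective hconj).symm.toMonoidHom.comp (f.codRestrict _ hrange), ?_⟩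
  refine (MonoidHom.ofInjective hconj).symm.injective.comp ?_
  intro s t hst
  exact hfi (congrArg Subtype.val hst)

end Main

/-- There is no group between `L` and `Aut L` with an elementary abelian Sylow `p`-subgroup of order `a ^ 2`,
`a ≡ ± 1 mod 8`. -/
def NoP (p : ℕ) (L : Type v) [Group L] : Prop :=
  ∀ (H : Type u) [Group H] [Finite H] (P : Sylow p H) (a : ℕ), (∀ y ∈ P, ∀ z ∈ P, y * z = z * y) →
    (∀ y ∈ P, y ^ p = 1) → Nat.card P = a ^ 2 → (a % 8 = 1 ∨ a % 8 = 7) → 1 < a →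
    ∀ f : H →* MulAut L, (∀ g, MulAut.conj g ∈ f.range) → (∀ y ∈ P, f y = 1 → y = 1) → False

section K

variable {K : Type u} [Group K] [Finite K] {p : ℕ} [Fact p.Prime] {x : MulAut K}
  {A : Subgroup ↥(fixedSubgroup x)} (hn : A.Normal) (hA : IsQuasisimple ↥A) {L : Type v}
  [Group L] (e : ↥A ⧸ center ↥A ≃* L) {B : Subgroup ↥(fixedSubgroup x)} (hB : B.Normal)
  (hBA : B ≤ centralizer (A : Set ↥(fixedSubgroup x)))
  (hBc : ∀ c : ↥(fixedSubgroup x), ∀ j ∈ centralizer (A : Set ↥(fixedSubgroup x)), ⁅c, j⁆ ∈ B)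
  (hBs : ∀ S : Sylow 2 ↥B, IsCyclic ↥(S : Subgroup ↥B))

include hn hA e hB hBA hBc hBs

/-- **`Obs` fails.** -/
theorem not_obs (hp : Odd p) (hZ : Odd (Nat.card ↥(center ↥A))) (hcL : center L = ⊥) (hOut : OutComm L)
    (hL : SubDihedral L) : ¬ Obs p x := by
  have h1 := subDihedral_gen hn hA e hB hBA hBc hBs hZ hcL hOut hL hp
  refine Cfsg.Agent.H500.OddD8.not_obs_of_subDihedral hp x
    ((closure {g : ↥(fixedSubgroup x) | PE p g}).map (fixedSubgroup x).subtype) ?_ ?_
  · intro g hg hgp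
    refine ⟨⟨g, hg⟩, ?_, rfl⟩
    refine subset_closure ?_
    obtain ⟨m, hm⟩ := hgp
    exact ⟨m, Subtype.ext hm⟩
  · exact subDihedral_of_injective (((closure {g : ↥(fixedSubgroup x) | PE p g}).equivMapOfInjective _
      (Subgroup.subtype_injective _)).symm.toMonoidHom) (MulEquiv.injective _) h1

/-- **`PCase` fails.** -/
theorem not_pcase (hp : Odd p) (hL : NoP.{u} p L) : ¬ PCase p x := by
  rintro ⟨P, hP1, hP2, hP3, hP4, hP5, hP6, a, hP7, hP8, hP9⟩
  have : Fact (Nat.Prime 2) := ⟨Nat.prime_two⟩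
  obtain ⟨O, S, hO, hOodd, hS, hS2, hOS⟩ := exists_OS hB hBs
  have hPC : P ≤ fixedSubgroup x := fun u hu => hP1 u hu
  have hcard : Nat.card ↥(P.subgroupOf (fixedSubgroup x)) = Nat.card ↥P :=
    Nat.card_congr (subgroupOfEquivOfLe hPC).toEquiv
  have hPp : IsPGroup p ↥(P.subgroupOf (fixedSubgroup x)) := hP2.comap_of_injective _ (Subgroup.subtype_injective _)
  obtain ⟨Q, hQ⟩ := hPp.exists_le_sylow
  have hQP : (Q : Subgroup ↥(fixedSubgroup x)) = P.subgroupOf (fixedSubgroup x) := by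
    symm
    refine Subgroup.eq_of_le_of_card_ge hQ ?_
    rw [hcard]
    obtain ⟨k, hk, hk'⟩ := hP3 ((Q : Subgroup ↥(fixedSubgroup x)).map (fixedSubgroup x).subtype)
      (Q.isPGroup'.map _) (by
      rintro _ ⟨u, -, rfl⟩
      exact u.2)
    refine Nat.card_le_card_of_injective (fun u : ↥(Q : Subgroup ↥(fixedSubgroup x)) =>
      (⟨k * ((u : ↥(fixedSubgroup x)) : K) * k⁻¹, hk' _ ⟨u, u.2, rfl⟩⟩ : ↥P)) ?_
    intro u v huv
    have h1 : k * ((u : ↥(fixedSubgroup x)) : K) * k⁻¹ = k * ((v : ↥(fixedSubgroup x)) : K) * k⁻¹ :=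
      congrArg Subtype.val huv
    exact Subtype.ext (Subtype.ext (by simpa using h1))
  have hmem : ∀ u ∈ Q, ((u : ↥(fixedSubgroup x)) : K) ∈ P := by
    intro u hu
    have h1 : u ∈ (Q : Subgroup ↥(fixedSubgroup x)) := hu
    rw [hQP] at h1
    exact h1
  refine hL ↥(fixedSubgroup x) Q a ?_ ?_ ?_ hP8 hP9 (barHom hn e) (conj_mem_range hn e) ?_
  · intro u hu v hv
    exact Subtype.ext (hP5 _ (hmem u hu) _ (hmem v hv))
  · intro u hu
    exact Subtype.ext (hP6 _ (hmem u hu))
  · rw [← hP7, ← hcard, ← hQP]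
  · intro u hu hfu
    rw [mem_ker_bar hn hA] at hfu
    obtain ⟨m, hm⟩ := Q.isPGroup' ⟨u, hu⟩
    have hm' : u ^ p ^ m = 1 := congrArg Subtype.val hm
    -- `u` is central modulo `O`
    have hpi : ∀ g, (QuotientGroup.mk' O) g = 1 ↔ g ∈ O := fun g => QuotientGroup.eq_one_iff g
    have hsur : Function.Surjective (QuotientGroup.mk' O) := QuotientGroup.mk'_surjective O
    have hBm : B.map (QuotientGroup.mk' O) = S.map (QuotientGroup.mk' O) := by
      rw [← hOS, Subgroup.map_sup]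
      have h1 : O.map (QuotientGroup.mk' O) = ⊥ := by
        rw [eq_bot_iff]
        rintro _ ⟨b, hb, rfl⟩
        exact (hpi b).2 hb
      rw [h1, bot_sup_eq]
    have hSn : (S.map (QuotientGroup.mk' O)).Normal := by
      rw [← hBm]
      exact hB.map _ hsur
    have hSc : IsCyclic ↥(S.map (QuotientGroup.mk' O)) :=
      isCyclic_of_surjective ((QuotientGroup.mk' O).subgroupMap S) ((QuotientGroup.mk' O).subgroupMap_surjective S)
    have hpu : PE p ((QuotientGroup.mk' O) u) := ⟨m, by rw [← map_pow, hm', map_one]⟩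
    have hSu := comm_of_cyclic hp hSn hSc (hS2.map _) hpu
    have hcen : ∀ c : ↥(fixedSubgroup x), (QuotientGroup.mk' O) (c * u * c⁻¹) = (QuotientGroup.mk' O) u := by
      intro c
      obtain ⟨d, hd⟩ : ∃ d, d = (QuotientGroup.mk' O) ⁅c, u⁆ := ⟨_, rfl⟩
      have hdS : d ∈ S.map (QuotientGroup.mk' O) := by
        rw [hd, ← hBm]
        exact Subgroup.mem_map_of_mem _ (hBc c u hfu)
      have h1 : (QuotientGroup.mk' O) (c * u * c⁻¹) = d * (QuotientGroup.mk' O) u := by
        rw [hd, ← map_mul, commutatorElement_def]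
        congr 1
        group
      have h2 : PE p ((QuotientGroup.mk' O) (c * u * c⁻¹)) := by
        refine ⟨m, ?_⟩
        rw [← map_pow]
        have h3 : (c * u * c⁻¹) ^ p ^ m = 1 := by rw [conj_pow, hm', mul_one, mul_inv_cancel]
        rw [h3, map_one]
      have hcomm : Commute d ((QuotientGroup.mk' O) u) := (hSu d hdS).symm
      have h3 : PE p d := by
        have h4 : d = (QuotientGroup.mk' O) (c * u * c⁻¹) * ((QuotientGroup.mk' O) u)⁻¹ := by rw [h1]; group
        rw [h4]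
        refine h2.of_commute hpu.inv ?_
        rw [h1]
        exact (hcomm.mul_left (Commute.refl _)).inv_right
      obtain ⟨k, hk⟩ := (hS2.map (QuotientGroup.mk' O)) ⟨d, hdS⟩
      have hk' : d ^ 2 ^ k = 1 := congrArg Subtype.val hk
      obtain ⟨l, hl⟩ := h3
      have h5 : orderOf d = 1 := Nat.eq_one_of_dvd_coprimes (Nat.Coprime.pow l k (Nat.coprime_two_right.2 hp))
          (orderOf_dvd_of_pow_eq_one hl) (orderOf_dvd_of_pow_eq_one hk')
      rw [orderOf_eq_one_iff] at h5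
      rw [h1, h5, one_mul]
    -- the normal subgroup `O ⟨u⟩`
    have hRn : ∀ c : ↥(fixedSubgroup x), ∀ v ∈ O ⊔ zpowers u, c * v * c⁻¹ ∈ O ⊔ zpowers u := by
      intro c v hv
      obtain ⟨o, ho, w, hw, rfl⟩ := Subgroup.mem_sup_of_normal_left.1 hv
      have h1 : c * (o * w) * c⁻¹ = (c * o * c⁻¹) * (c * w * c⁻¹) := by group
      rw [h1]
      refine mul_mem (le_sup_left (b := zpowers u) (hO.conj_mem o ho c)) ?_
      obtain ⟨i, rfl⟩ := mem_zpowers_iff.1 hw
      rw [← conj_zpow]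
      refine zpow_mem ?_ i
      have h2 : c * u * c⁻¹ * u⁻¹ ∈ O := by
        rw [← hpi, map_mul, hcen, map_inv, mul_inv_cancel]
      have h3 : c * u * c⁻¹ = (c * u * c⁻¹ * u⁻¹) * u := by group
      rw [h3]
      exact mul_mem (le_sup_left (b := zpowers u) h2) (le_sup_right (a := O) (mem_zpowers u))
    have h1 := hP4 ((O ⊔ zpowers u).map (fixedSubgroup x).subtype) ?_ ?_ ?_ ((u : ↥(fixedSubgroup x)) : K)
      ⟨u, le_sup_right (a := O) (mem_zpowers u), rfl⟩ ⟨m, congrArg Subtype.val hm'⟩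
    · exact Subtype.ext h1
    · rintro _ ⟨v, -, rfl⟩
      exact v.2
    · rintro _ ⟨v, hv, rfl⟩ k hk
      exact ⟨⟨k, hk⟩ * v * ⟨k, hk⟩⁻¹, hRn ⟨k, hk⟩ v hv, rfl⟩
    · rw [Nat.card_congr ((O ⊔ zpowers u).equivMapOfInjective _ (Subgroup.subtype_injective _)).toEquiv.symm]
      refine Odd.of_dvd_nat ?_ (Cfsg.Agent.Lib.Cores.card_sup_dvd _ _ hO)
      refine Odd.mul hOodd ?_
      rw [Nat.card_zpowers]
      exact Odd.of_dvd_nat hp.pow (orderOf_dvd_of_pow_eq_one hm')

/-- **The row lemma kills the components with dihedral Sylow 2-subgroups and cyclic centralizer.** -/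
theorem kill (hp : Odd p) (hrow : Row p K) (hxx : ∀ g, x (x g) = g) (hx1 : x ≠ 1)
    (hZ : Odd (Nat.card ↥(center ↥A))) (hcL : center L = ⊥) (hOut : OutComm L)
    (hL : SubDihedral L) (hNo : NoP.{u} p L) : SectionalPRankLE 2 4 K := by
  rcases hrow x hxx hx1 with h | h | h
  · exact (not_obs hn hA e hB hBA hBc hBs hp hZ hcL hOut hL h).elim
  · exact h
  · exact (not_pcase hn hA e hB hBA hBc hBs hp hNo h).elim

omit hB hBA hBc hBs in
/-- The case of cyclic Sylow 2-subgroups of the centralizer. -/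
theorem kill_cyclic (hcyc : ∀ R : Sylow 2 ↥(centralizer (A : Set ↥(fixedSubgroup x))),
    IsCyclic ↥(R : Subgroup ↥(centralizer (A : Set ↥(fixedSubgroup x))))) (hp : Odd p) (hrow : Row p K)
    (hxx : ∀ g, x (x g) = g) (hx1 : x ≠ 1)
    (hZ : Odd (Nat.card ↥(center ↥A))) (hcL : center L = ⊥) (hOut : OutComm L)
    (hL : SubDihedral L) (hNo : NoP.{u} p L) : SectionalPRankLE 2 4 K := by
  have hDn : (centralizer (A : Set ↥(fixedSubgroup x))).Normal := by
    have := hn
    infer_instance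
  refine kill hn hA e hDn le_rfl ?_ hcyc hp hrow hxx hx1 hZ hcL hOut hL hNo
  intro c j hj
  rw [commutatorElement_def]
  exact mul_mem (hDn.conj_mem j hj c) (inv_mem hj)

end K

end Cfsg.Agent.H286.Kill
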