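import Cfsg.Agent.H286.Kill
import Cfsg.Agent.H991.QuatQuot
import Cfsg.Agent.GH.L2Aut
import Cfsg.Agent.GH.L2FourAlt
import Cfsg.Agent.GH.AltOut
import Cfsg.Agent.SectRankFour.AutAlt
import Cfsg.Agent.H436.TTPsl2
import Cfsg.Agent.S0254

/-!
# The side conditions of `Kill.kill` for the component groups

`Dih p L` : `Z(L) = 1`, `Out L` abelian, dihedral 2-subgroups, `NoP p L`; for `PSL₂(q)` with `q ≡ 7, 9 (mod 16)` or
`q = 5`, and for `A₇`.
-/

set_option autoImplicit false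
set_option linter.unusedSectionVars false

namespace Cfsg.Agent.H286.KillL

open Subgroup Cfsg Cfsg.Agent.H286.Obs Cfsg.Agent.H286.Row Cfsg.Agent.SectRankFour.OutAb Cfsg.Agent.H286.Kill
open Cfsg.Agent.Classification.DihedralCentral Cfsg.Agent.GH
open scoped commutatorElement

universe u v

/-- The side conditions of `Kill.kill` -/
structure Dih (p : ℕ) (L : Type v) [Group L] : Prop where
  cen : center L = ⊥
  out : OutComm L
  sub : SubDihedral L
  noP : NoP.{u} p L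

theorem subDihedral_psl_two {F : Type v} [Field F] [Fintype F] (hF : Odd (Fintype.card F)) :
    SubDihedral (Matrix.ProjectiveSpecialLinearGroup (Fin 2) F) := by
  have : Finite (Matrix.ProjectiveSpecialLinearGroup (Fin 2) F) := inferInstanceAs (Finite (_ ⧸ _))
  obtain ⟨S⟩ : Nonempty (Sylow 2 (Matrix.ProjectiveSpecialLinearGroup (Fin 2) F)) := inferInstance
  obtain ⟨k, -, ⟨e⟩⟩ := Cfsg.Agent.H991.psl2_dihedral hF S
  exact subDihedral_of_sylow S _ e

theorem center_psl_two {F : Type v} [Field F] [Fintype F] (hF : Odd (Fintype.card F)) :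
    center (Matrix.ProjectiveSpecialLinearGroup (Fin 2) F) = ⊥ :=
  (L2Aut.Rep.ofEquiv (F := F) (L2Aut.two_ne_zero_of_odd hF)
    (MulEquiv.refl (Matrix.ProjectiveSpecialLinearGroup (Fin 2) F))).center_eq_bot

/-- `PSL₂(q)`, `q ≡ 7, 9 (mod 16)` -/
theorem dih_l2 {F : Type v} [Field F] [Fintype F] (hF : Fintype.card F % 16 = 7 ∨ Fintype.card F % 16 = 9)
    {p : ℕ} [Fact p.Prime] (hp : p ≠ 2) : Dih.{u} p (Matrix.ProjectiveSpecialLinearGroup (Fin 2) F) := by
  have hodd : Odd (Fintype.card F) := by rw [Nat.odd_iff]; omega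
  refine ⟨center_psl_two hodd, outComm_psl_two F, subDihedral_psl_two hodd, ?_⟩
  intro H _ _ P a h1 h2 h3 h4 h5 f hf hk
  exact Cfsg.Agent.H51.OddSeven.false_l2 hp P h1 h2 h3 h4 h5 hF f hf hk

/-- `A₇` -/
theorem dih_a7 {p : ℕ} [Fact p.Prime] (hp : p ≠ 2) : Dih.{u} p (alternatingGroup (Fin 7)) := by
  have : Fact (Nat.Prime 2) := ⟨Nat.prime_two⟩
  refine ⟨?_, SectRankFour.AutAlt.outComm_alt_seven, ?_, ?_⟩
  · have hs : IsSimpleGroup (alternatingGroup (Fin 7)) := alternatingGroup.isSimpleGroup (by simp)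
    refine AltOut.center_eq_bot ?_
    intro h
    have h1 := h.is_comm.comm (⟨Equiv.swap (0 : Fin 7) 1 * Equiv.swap 1 2, by
      rw [Equiv.Perm.mem_alternatingGroup]; decide⟩ : alternatingGroup (Fin 7))
      (⟨Equiv.swap (0 : Fin 7) 1 * Equiv.swap 1 3, by rw [Equiv.Perm.mem_alternatingGroup]; decide⟩ :
        alternatingGroup (Fin 7))
    have h2 := congrArg Subtype.val h1
    revert h2
    decide
  · obtain ⟨S, ⟨e⟩⟩ := L2FourAlt.exists_sylow
    exact subDihedral_of_sylow S _ e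
  · intro H _ _ P a h1 h2 h3 h4 h5 f hf hk
    exact Cfsg.Agent.H51.OddSeven.false_a7 hp P h1 h2 h3 h4 h5 f hf hk

/-- `PSL₂(5)` -/
theorem dih_l2_five {F : Type v} [Field F] [Fintype F] (hF : Fintype.card F = 5)
    {p : ℕ} [Fact p.Prime] : Dih.{u} p (Matrix.ProjectiveSpecialLinearGroup (Fin 2) F) := by
  have hodd : Odd (Fintype.card F) := by rw [hF]; decide
  refine ⟨center_psl_two hodd, outComm_psl_two F, subDihedral_psl_two hodd, ?_⟩
  intro H _ _ P a h1 h2 h3 h4 h5 f hf hk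
  have : Fact (Nat.Prime 5) := ⟨by norm_num⟩
  have : Finite (Matrix.ProjectiveSpecialLinearGroup (Fin 2) F) := inferInstanceAs (Finite (_ ⧸ _))
  let g : (P : Subgroup H) →* MulAut (Matrix.ProjectiveSpecialLinearGroup (Fin 2) F) := f.comp (P : Subgroup H).subtype
  have hg : Function.Injective g := by
    rw [injective_iff_map_eq_one]
    rintro ⟨u, hu⟩ hu1
    exact Subtype.ext (hk u hu hu1)
  have h6 := Subgroup.card_dvd_of_injective g hg
  have h7 := Cfsg.Agent.H436.TT.card_mulAut (F := F) 5 1 (by rw [hF, pow_one]) le_rfl (by rw [hF]; norm_num)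
  have h8 : Nat.card (Matrix.ProjectiveSpecialLinearGroup (Fin 2) F) = 60 := by
    have h10 := Cfsg.Agent.ClassicalGeometry.PSL2Basic.card_PSL2_gcd (F := F)
    rw [hF] at h10
    norm_num at h10
    omega
  rw [h7, h8, hF] at h6
  rw [h3] at h6
  norm_num at h6
  have h9 : a ^ 2 ≤ 120 := Nat.le_of_dvd (by norm_num) h6
  have h10 : a ≤ 10 := by nlinarith
  clear h7 h8 h3
  interval_cases a <;> revert h6 h4 <;> decide

/-- The full corollary : `A / Z(A) ≃ L`, `Dih p L` -/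
theorem main {K : Type u} [Group K] [Finite K] {p : ℕ} [Fact p.Prime] (hp : p ≠ 2) (hrow : Row p K) {x : MulAut K}
    {A : Subgroup ↥(fixedSubgroup x)} (hn : A.Normal) (hA : IsQuasisimple ↥A) {L : Type v}
    [Group L] (e : ↥A ⧸ center ↥A ≃* L) {B : Subgroup ↥(fixedSubgroup x)} (hB : B.Normal)
    (hBA : B ≤ centralizer (A : Set ↥(fixedSubgroup x)))
    (hBc : ∀ c : ↥(fixedSubgroup x), ∀ j ∈ centralizer (A : Set ↥(fixedSubgroup x)), ⁅c, j⁆ ∈ B)
    (hBs : ∀ S : Sylow 2 ↥B, IsCyclic ↥(S : Subgroup ↥B))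
    (hxx : ∀ g, x (x g) = g) (hx1 : x ≠ 1) (hZ : Odd (Nat.card ↥(center ↥A))) (hL : Dih.{u} p L) :
    SectionalPRankLE 2 4 K :=
  kill hn hA e hB hBA hBc hBs ((Fact.out : p.Prime).odd_of_ne_two hp) hrow hxx hx1 hZ hL.cen hL.out hL.sub hL.noP

theorem main_cyclic {K : Type u} [Group K] [Finite K] {p : ℕ} [Fact p.Prime] (hp : p ≠ 2) (hrow : Row p K)
    {x : MulAut K} {A : Subgroup ↥(fixedSubgroup x)} (hn : A.Normal) (hA : IsQuasisimple ↥A) {L : Type v}
    [Group L] (e : ↥A ⧸ center ↥A ≃* L)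
    (hcyc : ∀ R : Sylow 2 ↥(centralizer (A : Set ↥(fixedSubgroup x))),
      IsCyclic ↥(R : Subgroup ↥(centralizer (A : Set ↥(fixedSubgroup x)))))
    (hxx : ∀ g, x (x g) = g) (hx1 : x ≠ 1) (hZ : Odd (Nat.card ↥(center ↥A))) (hL : Dih.{u} p L) :
    SectionalPRankLE 2 4 K :=
  kill_cyclic hn hA e hcyc ((Fact.out : p.Prime).odd_of_ne_two hp) hrow hxx hx1 hZ hL.cen hL.out hL.sub hL.noP

end Cfsg.Agent.H286.KillL
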