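import Cfsg.Agent.S1727
import Cfsg.Agent.S0205
import Cfsg.Agent.H284.FStd
import Cfsg.Agent.Lib.PComponents

/-!
# S3107: the standard subgroup

`t` an involution of `G`, `F*(G)` simple, `E(C/O(C))` simple nonabelian of order divisible by 4 and with centralizer
`⟨t̄⟩` : `A := E(C)` is a standard subgroup of `G`, `|Z(A)|` odd, `A / Z(A) ≃ E(C/O(C))`, and the Sylow 2-subgroups of
`C_G(A)` have order two.
-/

set_option autoImplicit false
set_option linter.unusedSectionVars false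

namespace Cfsg.Agent.H286.StdOf

open Subgroup Cfsg Cfsg.Agent.SignalizersComponents.Components
open scoped Pointwise

section lay

variable {C : Type*} [Group C] [Finite C]

theorem oddCore_eq : oddCore C = pPrimeCore 2 C := rfl

theorem odd_core : Odd (Nat.card ↥(oddCore C)) := Nat.coprime_two_right.1 (Lib.Cores.pPrimeCore_coprime 2)

theorem core_normal : (oddCore C).Normal := Lib.Cores.pPrimeCore_normal 2

theorem map_layer (hB : pLayer 2 C = layer C) :
    (layer C).map (QuotientGroup.mk' (oddCore C)) = layer (C ⧸ oddCore C) := by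
  have : Fact (Nat.Prime 2) := ⟨Nat.prime_two⟩
  rw [← hB]
  exact Lib.PComponents.map_pLayer (p := 2)

/-- `E(C) → E(C/O(C))` -/
noncomputable def lam (hB : pLayer 2 C = layer C) : ↥(layer C) →* ↥(layer (C ⧸ oddCore C)) :=
  ((QuotientGroup.mk' (oddCore C)).comp (layer C).subtype).codRestrict _ (fun y => by
    rw [← map_layer hB]
    exact ⟨y, y.2, rfl⟩)

theorem lam_coe (hB : pLayer 2 C = layer C) (y : ↥(layer C)) :
    ((lam hB y : ↥(layer (C ⧸ oddCore C))) : C ⧸ oddCore C) = QuotientGroup.mk' (oddCore C) (y : C) := rfl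

theorem lam_surj (hB : pLayer 2 C = layer C) : Function.Surjective (lam hB) := by
  rintro ⟨y, hy⟩
  rw [← map_layer hB] at hy
  obtain ⟨x, hx, rfl⟩ := hy
  exact ⟨⟨x, hx⟩, rfl⟩

theorem ker_lam (hB : pLayer 2 C = layer C) : (lam hB).ker = (oddCore C).subgroupOf (layer C) := by
  ext y
  rw [MonoidHom.mem_ker, mem_subgroupOf, ← QuotientGroup.eq_one_iff]
  constructor
  · intro h
    exact congrArg Subtype.val h
  · intro h
    exact Subtype.ext h

theorem ker_le (hB : pLayer 2 C = layer C) : (lam hB).ker ≤ center ↥(layer C) := by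
  have h1 : ⁅layer C, oddCore C⁆ = ⊥ := by
    have hn := core_normal (C := C)
    refine layer_commutator_solvable ?_ (Cfsg.Agent.S0205.result odd_core)
    rw [normalizer_eq_top_iff.mpr hn]
    exact le_top
  rw [commutator_eq_bot_iff_le_centralizer] at h1
  intro y hy
  rw [ker_lam, mem_subgroupOf] at hy
  rw [mem_center_iff]
  intro z
  exact Subtype.ext (mem_centralizer_iff.1 (h1 z.2) _ hy).symm

theorem ker_eq (hB : pLayer 2 C = layer C) (hs : IsSimpleGroup ↥(layer (C ⧸ oddCore C)))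
    (hn : ¬ IsMulCommutative ↥(layer (C ⧸ oddCore C))) : (lam hB).ker = center ↥(layer C) := by
  apply le_antisymm (ker_le hB)
  intro z hz
  have h1 : lam hB z ∈ center ↥(layer (C ⧸ oddCore C)) := by
    rw [mem_center_iff]
    intro w
    obtain ⟨v, rfl⟩ := lam_surj hB w
    rw [← map_mul, mem_center_iff.1 hz v, map_mul]
  have h2 : center ↥(layer (C ⧸ oddCore C)) = ⊥ := by
    rcases (inferInstance : (center ↥(layer (C ⧸ oddCore C))).Normal).eq_bot_or_eq_top with h | h
    · exact h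
    · exact (hn ⟨⟨fun a b => (mem_center_iff.1 (h ▸ mem_top a : a ∈ center _) b).symm⟩⟩).elim
  rw [h2, mem_bot] at h1
  exact MonoidHom.mem_ker.2 h1

noncomputable def lamEquiv (hB : pLayer 2 C = layer C) (hs : IsSimpleGroup ↥(layer (C ⧸ oddCore C)))
    (hn : ¬ IsMulCommutative ↥(layer (C ⧸ oddCore C))) :
    ↥(layer C) ⧸ center ↥(layer C) ≃* ↥(layer (C ⧸ oddCore C)) :=
  (QuotientGroup.quotientMulEquivOfEq (ker_eq hB hs hn).symm).trans
    (QuotientGroup.quotientKerEquivOfSurjective (lam hB) (lam_surj hB))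

theorem quasi (hB : pLayer 2 C = layer C) (hs : IsSimpleGroup ↥(layer (C ⧸ oddCore C)))
    (hn : ¬ IsMulCommutative ↥(layer (C ⧸ oddCore C))) : IsQuasisimple ↥(layer C) := by
  refine ⟨layer_isPerfect C, ?_⟩
  exact (lamEquiv hB hs hn).isSimpleGroup

theorem odd_center (hB : pLayer 2 C = layer C) (hs : IsSimpleGroup ↥(layer (C ⧸ oddCore C)))
    (hn : ¬ IsMulCommutative ↥(layer (C ⧸ oddCore C))) : Odd (Nat.card ↥(center ↥(layer C))) := by
  rw [← ker_eq hB hs hn, ker_lam]
  refine (odd_core (C := C)).of_dvd_nat ?_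
  exact card_comap_dvd_of_injective _ _ (subtype_injective _)

end lay

section std

variable {G : Type*} [Group G]

/-- `E(C_G(t))` as a subgroup of `G` -/
def EC (t : G) : Subgroup G := (layer ↥(centralizer ({t} : Set G))).map (centralizer ({t} : Set G)).subtype

variable [Finite G]

structure Hy (t : G) : Prop where
  core : oddCore G = ⊥
  ord : orderOf t = 2
  sim : IsSimpleGroup ↥(layer (↥(centralizer ({t} : Set G)) ⧸ oddCore ↥(centralizer ({t} : Set G))))
  nc : ¬ IsMulCommutative ↥(layer (↥(centralizer ({t} : Set G)) ⧸ oddCore ↥(centralizer ({t} : Set G))))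
  four : 4 ∣ Nat.card ↥(layer (↥(centralizer ({t} : Set G)) ⧸ oddCore ↥(centralizer ({t} : Set G))))
  cen : ∀ u : ↥(centralizer ({t} : Set G)), (∀ y ∈ layer (↥(centralizer ({t} : Set G)) ⧸
    oddCore ↥(centralizer ({t} : Set G))), y * QuotientGroup.mk' (oddCore ↥(centralizer ({t} : Set G))) u =
      QuotientGroup.mk' (oddCore ↥(centralizer ({t} : Set G))) u * y) →
      u ∈ oddCore ↥(centralizer ({t} : Set G)) ∨ u * ⟨t, mem_centralizer_singleton_iff.2 rfl⟩ ∈ oddCore ↥(centralizer ({t} : Set G))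

variable {t : G} (h : Hy t)

theorem Hy.bthm (h : Hy t) : pLayer 2 ↥(centralizer ({t} : Set G)) = layer ↥(centralizer ({t} : Set G)) :=
  Cfsg.Agent.S1727.result h.core t h.ord

/-- `E(C) ≃ EC t` -/
noncomputable def ecEquiv (t : G) : ↥(layer ↥(centralizer ({t} : Set G))) ≃* ↥(EC t) :=
  (layer ↥(centralizer ({t} : Set G))).equivMapOfInjective _ (subtype_injective _)

theorem EC_le : EC t ≤ centralizer ({t} : Set G) := map_subtype_le _

theorem Hy.quasi (h : Hy t) : IsQuasisimple ↥(EC t) :=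
  isQuasisimple_of_mulEquiv (ecEquiv t) (StdOf.quasi h.bthm h.sim h.nc)

theorem Hy.odd_center (h : Hy t) : Odd (Nat.card ↥(center ↥(EC t))) := by
  have h1 := StdOf.odd_center h.bthm h.sim h.nc
  rwa [Nat.card_congr (Subgroup.centerCongr (ecEquiv t)).toEquiv] at h1

theorem mem_cen : t ∈ centralizer (EC t : Set G) := by
  rw [mem_centralizer_iff]
  intro y hy
  exact mem_centralizer_singleton_iff.1 (EC_le hy)

theorem le_norm : centralizer ({t} : Set G) ≤ normalizer (EC t : Set G) := by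
  intro c hc
  have hn := layer_normal ↥(centralizer ({t} : Set G))
  rw [mem_normalizer_iff]
  have key : ∀ c : G, c ∈ centralizer ({t} : Set G) → ∀ y : G, y ∈ EC t → c * y * c⁻¹ ∈ EC t := by
    rintro c hc _ ⟨y, hy, rfl⟩
    exact ⟨⟨c, hc⟩ * y * ⟨c, hc⟩⁻¹, hn.conj_mem y hy ⟨c, hc⟩, rfl⟩
  intro y
  refine ⟨key c hc y, fun hy => ?_⟩
  have h1 := key c⁻¹ (inv_mem hc) _ hy
  rwa [inv_inv, ← mul_assoc, ← mul_assoc, inv_mul_cancel, one_mul, inv_mul_cancel_right] at h1

/-- the elements of `C_G(A)` commuting with `t` -/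
theorem Hy.mem_core (h : Hy t) {u : G} (hu : u ∈ centralizer (EC t : Set G)) (hut : u ∈ centralizer ({t} : Set G)) :
    (⟨u, hut⟩ : ↥(centralizer ({t} : Set G))) ∈ oddCore ↥(centralizer ({t} : Set G)) ∨
      (⟨u, hut⟩ : ↥(centralizer ({t} : Set G))) * ⟨t, mem_centralizer_singleton_iff.2 rfl⟩ ∈
        oddCore ↥(centralizer ({t} : Set G)) := by
  apply h.cen
  intro y hy
  rw [← map_layer h.bthm] at hy
  obtain ⟨x, hx, rfl⟩ := hy
  rw [← map_mul, ← map_mul]
  congr 1
  exact Subtype.ext (mem_centralizer_iff.1 hu _ ⟨x, hx, rfl⟩)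

theorem odd_of_core {u : ↥(centralizer ({t} : Set G))} (hu : u ∈ oddCore ↥(centralizer ({t} : Set G))) :
    Odd (orderOf (u : G)) := by
  rw [Subgroup.orderOf_coe, ← Subgroup.orderOf_mk _ hu]
  exact (odd_core (C := ↥(centralizer ({t} : Set G)))).of_dvd_nat (orderOf_dvd_natCard _)

theorem eq_one_of_odd {T : Subgroup G} (hT : IsPGroup 2 ↥T) {u : G} (hu : u ∈ T) (ho : Odd (orderOf u)) : u = 1 := by
  have : Fact (Nat.Prime 2) := ⟨Nat.prime_two⟩
  obtain ⟨k, hk⟩ := hT ⟨u, hu⟩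
  have h1 : u ^ 2 ^ k = 1 := congrArg Subtype.val hk
  have h2 := orderOf_dvd_of_pow_eq_one h1
  have h3 : Nat.Coprime (orderOf u) (2 ^ k) := Nat.Coprime.pow_right k (Nat.coprime_two_right.2 ho)
  exact orderOf_eq_one_iff.1 (Nat.eq_one_of_dvd_coprimes h3 dvd_rfl h2)

/-- **the 2-subgroups of `C_G(A)`** -/
theorem Hy.two (h : Hy t) {T : Subgroup G} (hT : IsPGroup 2 ↥T) (hTD : T ≤ centralizer (EC t : Set G)) (htT : t ∈ T) :
    ∀ u ∈ T, u = 1 ∨ u = t := by
  have : Fact (Nat.Prime 2) := ⟨Nat.prime_two⟩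
  have htt : t * t = 1 := by rw [← pow_two, ← h.ord, pow_orderOf_eq_one]
  have ht1 : t ≠ 1 := by
    rintro rfl
    have := h.ord
    rw [orderOf_one] at this
    omega
  have h1 : ∀ u ∈ T, u * t = t * u → u = 1 ∨ u = t := by
    intro u hu hut
    rcases h.mem_core (hTD hu) (mem_centralizer_singleton_iff.2 hut) with h2 | h2
    · exact Or.inl (eq_one_of_odd hT hu (odd_of_core h2))
    · right
      have h3 := eq_one_of_odd hT (mul_mem hu htT) (odd_of_core h2)
      rw [← inv_eq_of_mul_eq_one_left htt]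
      exact eq_inv_of_mul_eq_one_left h3
  have hne : Nontrivial ↥T := ⟨⟨⟨t, htT⟩, 1, fun h => ht1 (congrArg Subtype.val h)⟩⟩
  have hz := hT.center_nontrivial
  obtain ⟨⟨z, hz⟩, hz1⟩ := exists_ne (1 : ↥(center ↥T))
  have hzt : (z : G) = t := by
    rcases h1 z z.2 (congrArg Subtype.val (mem_center_iff.1 hz ⟨t, htT⟩)).symm with h2 | h2
    · exact (hz1 (Subtype.ext (Subtype.ext h2))).elim
    · exact h2
  intro u hu
  refine h1 u hu ?_
  rw [← hzt]
  exact congrArg Subtype.val (mem_center_iff.1 hz ⟨u, hu⟩)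

theorem Hy.tt (h : Hy t) : t * t = 1 := by rw [← pow_two, ← h.ord, pow_orderOf_eq_one]

theorem Hy.t1 (h : Hy t) : t ≠ 1 := by
  rintro rfl
  have := h.ord
  rw [orderOf_one] at this
  omega

/-- a Sylow 2-subgroup of `C_G(A)` containing `t` -/
theorem exists_sylow (h : Hy t) : ∃ S : Sylow 2 ↥(centralizer (EC t : Set G)),
    (⟨t, mem_cen⟩ : ↥(centralizer (EC t : Set G))) ∈ S := by
  have : Fact (Nat.Prime 2) := ⟨Nat.prime_two⟩
  have h1 : IsPGroup 2 ↥(zpowers (⟨t, mem_cen⟩ : ↥(centralizer (EC t : Set G)))) := by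
    refine IsPGroup.of_card (n := 1) ?_
    rw [Nat.card_zpowers, ← Subgroup.orderOf_coe, h.ord, pow_one]
  obtain ⟨S, hS⟩ := h1.exists_le_sylow
  exact ⟨S, hS (mem_zpowers _)⟩

theorem Hy.mem_sylow (h : Hy t) {S : Sylow 2 ↥(centralizer (EC t : Set G))}
    (hS : (⟨t, mem_cen⟩ : ↥(centralizer (EC t : Set G))) ∈ S) {u : ↥(centralizer (EC t : Set G))} (hu : u ∈ S) :
    (u : G) = 1 ∨ (u : G) = t :=
  h.two (T := (S : Subgroup _).map (centralizer (EC t : Set G)).subtype) (S.isPGroup'.map _) (map_subtype_le _)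
    ⟨_, hS, rfl⟩ u ⟨u, hu, rfl⟩

theorem Hy.card_sylow (h : Hy t) (S : Sylow 2 ↥(centralizer (EC t : Set G))) :
    Nat.card ↥(S : Subgroup ↥(centralizer (EC t : Set G))) = 2 := by
  have : Fact (Nat.Prime 2) := ⟨Nat.prime_two⟩
  obtain ⟨S0, hS0⟩ := exists_sylow h
  rw [Nat.card_congr (Sylow.equiv S S0).toEquiv]
  apply le_antisymm
  · have h1 : Function.Injective (fun u : ↥(S0 : Subgroup ↥(centralizer (EC t : Set G))) =>
        (⟨((u : ↥(centralizer (EC t : Set G))) : G), by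
          rcases h.mem_sylow hS0 u.2 with h | h
          · exact Or.inl h
          · exact Or.inr h⟩ : ({1, t} : Set G))) := fun u v huv =>
      Subtype.ext (Subtype.ext (congrArg (fun w : ({1, t} : Set G) => (w : G)) huv))
    refine (Nat.card_le_card_of_injective _ h1).trans ?_
    rw [Nat.card_coe_set_eq]
    exact Set.ncard_insert_le _ _ |>.trans (by rw [Set.ncard_singleton])
  · refine Nat.le_of_dvd Nat.card_pos ?_
    have h2 := orderOf_dvd_natCard (⟨⟨t, mem_cen⟩, hS0⟩ : ↥(S0 : Subgroup ↥(centralizer (EC t : Set G))))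
    rwa [← Subgroup.orderOf_coe, ← Subgroup.orderOf_coe, h.ord] at h2

theorem Hy.not_four (h : Hy t) : ¬ 4 ∣ Nat.card ↥(centralizer (EC t : Set G)) := by
  have : Fact (Nat.Prime 2) := ⟨Nat.prime_two⟩
  intro h4
  obtain ⟨H, hH⟩ := Sylow.exists_subgroup_card_pow_prime 2 (n := 2) (G := ↥(centralizer (EC t : Set G)))
    (by norm_num; exact h4)
  obtain ⟨S, hS⟩ := (IsPGroup.of_card hH).exists_le_sylow
  have h1 := card_dvd_of_le hS
  rw [h.card_sylow S, hH] at h1
  revert h1
  norm_num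

theorem Hy.conj (h : Hy t) {u : G} (hu : u ∈ centralizer (EC t : Set G)) (huu : u * u = 1) (hu1 : u ≠ 1) :
    ∃ d ∈ centralizer (EC t : Set G), u = d * t * d⁻¹ := by
  have : Fact (Nat.Prime 2) := ⟨Nat.prime_two⟩
  obtain ⟨S0, hS0⟩ := exists_sylow h
  have h1 : IsPGroup 2 ↥(zpowers (⟨u, hu⟩ : ↥(centralizer (EC t : Set G)))) := by
    refine IsPGroup.of_card (n := 1) ?_
    rw [Nat.card_zpowers, ← Subgroup.orderOf_coe, pow_one]
    exact orderOf_eq_prime (by rw [pow_two]; exact huu) hu1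
  obtain ⟨S, hS⟩ := h1.exists_le_sylow
  have huS := hS (mem_zpowers (⟨u, hu⟩ : ↥(centralizer (EC t : Set G))))
  obtain ⟨d, hd⟩ := MulAction.exists_smul_eq ↥(centralizer (EC t : Set G)) S0 S
  rw [← hd] at huS
  have huS' : (⟨u, hu⟩ : ↥(centralizer (EC t : Set G))) ∈ MulAut.conj d • (S0 : Subgroup ↥(centralizer (EC t : Set G))) := huS
  rw [mem_pointwise_smul_iff_inv_smul_mem] at huS'
  have h3 := h.mem_sylow hS0 huS'
  have h4 : (((MulAut.conj d)⁻¹ • (⟨u, hu⟩ : ↥(centralizer (EC t : Set G))) : ↥(centralizer (EC t : Set G))) : G) =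
      (d : G)⁻¹ * u * d := by
    have h5 : (MulAut.conj d)⁻¹ • (⟨u, hu⟩ : ↥(centralizer (EC t : Set G))) = d⁻¹ * ⟨u, hu⟩ * d := by
      rw [← map_inv, MulAut.smul_def, MulAut.conj_apply, inv_inv]
    rw [h5]
    rfl
  rw [h4] at h3
  refine ⟨d, d.2, ?_⟩
  rcases h3 with h3 | h3
  · exfalso
    apply hu1
    calc u = (d : G) * ((d : G)⁻¹ * u * d) * (d : G)⁻¹ := by group
      _ = 1 := by rw [h3]; group
  · calc u = (d : G) * ((d : G)⁻¹ * u * d) * (d : G)⁻¹ := by group
      _ = (d : G) * t * (d : G)⁻¹ := congrArg (fun w => (d : G) * w * (d : G)⁻¹) h3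

theorem Hy.norm_of (h : Hy t) {g u : G} (hu : u ∈ centralizer (EC t : Set G)) (huu : u * u = 1) (hu1 : u ≠ 1)
    (hg : g⁻¹ * u * g ∈ centralizer (EC t : Set G)) : g ∈ normalizer (EC t : Set G) := by
  obtain ⟨e, he, rfl⟩ := h.conj hu huu hu1
  obtain ⟨d, hd, hde⟩ := h.conj hg (by
    calc g⁻¹ * (e * t * e⁻¹) * g * (g⁻¹ * (e * t * e⁻¹) * g) = g⁻¹ * ((e * t * e⁻¹) * (e * t * e⁻¹)) * g := by group
      _ = 1 := by rw [huu]; group) (by
    intro h1
    apply hu1
    calc e * t * e⁻¹ = g * (g⁻¹ * (e * t * e⁻¹) * g) * g⁻¹ := by group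
      _ = 1 := by rw [h1]; group)
  have hle : centralizer (EC t : Set G) ≤ normalizer (EC t : Set G) := centralizer_le_normalizer _
  have h1 : e⁻¹ * g * d ∈ centralizer ({t} : Set G) := by
    rw [mem_centralizer_singleton_iff]
    calc e⁻¹ * g * d * t = e⁻¹ * g * (d * t * d⁻¹) * d := by group
      _ = e⁻¹ * g * (g⁻¹ * (e * t * e⁻¹) * g) * d := by rw [hde]
      _ = t * (e⁻¹ * g * d) := by group
  have h2 := mul_mem (mul_mem (hle he) (le_norm h1)) (inv_mem (hle hd))
  have h3 : e * (e⁻¹ * g * d) * d⁻¹ = g := by group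
  rwa [h3] at h2

theorem Hy.four' (h : Hy t) : 4 ∣ Nat.card ↥(EC t) := by
  rw [← Nat.card_congr (ecEquiv t).toEquiv]
  exact h.four.trans (card_dvd_of_surjective _ (lam_surj h.bthm))

theorem norm_le : normalizer (EC t : Set G) ≤ normalizer (centralizer (EC t : Set G) : Set G) := by
  intro g hg
  have key : ∀ g ∈ normalizer (EC t : Set G), ∀ y ∈ centralizer (EC t : Set G), g * y * g⁻¹ ∈ centralizer (EC t : Set G) := by
    intro g hg y hy
    rw [mem_centralizer_iff] at hy ⊢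
    intro a ha
    have h1 := hy _ ((mem_normalizer_iff''.1 hg a).1 ha)
    calc a * (g * y * g⁻¹) = g * (g⁻¹ * a * g * y) * g⁻¹ := by group
      _ = g * (y * (g⁻¹ * a * g)) * g⁻¹ := by rw [h1]
      _ = g * y * g⁻¹ * a := by group
  rw [mem_normalizer_iff]
  intro y
  refine ⟨key g hg y, fun hy => ?_⟩
  have h1 := key g⁻¹ (inv_mem hg) _ hy
  rwa [inv_inv, ← mul_assoc, ← mul_assoc, inv_mul_cancel, one_mul, inv_mul_cancel_right] at h1

/-- **`E(C)` is a standard subgroup** -/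
theorem Hy.std (h : Hy t) : IsStandardSubgroup (EC t) := by
  have : Fact (Nat.Prime 2) := ⟨Nat.prime_two⟩
  refine ⟨h.quasi, ⟨?_, ?_⟩, ?_, ?_⟩
  · rw [even_iff_two_dvd]
    have h1 := orderOf_dvd_natCard (⟨t, mem_cen⟩ : ↥(centralizer (EC t : Set G)))
    rwa [← Subgroup.orderOf_coe, h.ord] at h1
  · intro g hg
    by_contra hne
    rw [Nat.not_odd_iff_even, even_iff_two_dvd] at hne
    obtain ⟨u, hu⟩ := exists_prime_orderOf_dvd_card' 2 hne
    have hu2 := u.2
    rw [mem_inf] at hu2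
    obtain ⟨hu3, v, hv, hvu⟩ := hu2
    have huo : orderOf (u : G) = 2 := by rw [Subgroup.orderOf_coe, hu]
    apply hg
    apply norm_le
    refine h.norm_of hu3 ?_ ?_ ?_
    · rw [← pow_two, ← huo, pow_orderOf_eq_one]
    · intro h1
      rw [h1, orderOf_one] at huo
      omega
    · have h2 : g * v * g⁻¹ = (u : G) := hvu
      have h3 : g⁻¹ * (u : G) * g = v := by rw [← h2]; group
      rw [h3]
      exact hv
  · intro g _ hcomm
    rw [commutator_comm, commutator_eq_bot_iff_le_centralizer] at hcomm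
    have h1 := card_dvd_of_le hcomm
    have h2 : Nat.card ↥((EC t).map (MulAut.conj g).toMonoidHom) = Nat.card ↥(EC t) :=
      Nat.card_congr ((EC t).equivMapOfInjective _ (MulAut.conj g).injective).symm.toEquiv
    rw [h2] at h1
    exact h.not_four (h.four'.trans h1)
  · apply le_antisymm norm_le
    intro g hg
    refine h.norm_of mem_cen h.tt h.t1 ?_
    exact (mem_normalizer_iff''.1 hg t).1 mem_cen

end std

end Cfsg.Agent.H286.StdOf
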